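import Cfsg.Agent.H212.SF.GenOne
import Cfsg.Agent.H256.SF.LinOne
import Cfsg.Agent.H256.SF.LinTwo

/-!
# S5314, piece GEN1, unconditional form (helper212)
-/

set_option autoImplicit false

namespace Cfsg.Agent.H212.SF

open Cfsg Cfsg.FusionSystem Cfsg.Agent.H752 Cfsg.Agent.H285.SF

variable {Ω : Type*} [Group Ω] {T : Subgroup Ω} [Finite T] {K : FusionSystem T} {E : Subgroup Ω}

theorem presFacts_aut (hET : E ≤ T) (hE : ∀ a ∈ E, a * a = 1) (hc : Nat.card E = 16)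
    (htr : ∀ a ∈ E, ∀ b ∈ E, a ≠ 1 → b ≠ 1 → ∃ f, Mp K E f ∧ St E f ∧ f a = b) (hA : AutTy K E) :
    (∀ f g, Pres K f → Pres K g → St E f → St E g → ¬ Mp K E f → ¬ Mp K E g → Mp K E (fun x => f (g x))) ∧
    (∀ f, Pres K f → St E f → ¬ Mp K E f → Nat.card (K.autGroup E) = 180) ∧
    (∀ f, Pres K f → St E f → ¬ Mp K E f → ∀ D ≤ E, (∀ x ∈ D, f x = x) → Nat.card D ≤ 4) := by
  have hE' : ∀ a : E, a * a = 1 := fun a => Subtype.ext (hE a a.2)
  exact presFacts_aut_of (fun A hA => H256.SF.normalizer_eq_of_card hE' hc A hA)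
    (fun w hw => H256.SF.card_centralizer_scalar hE' hc w hw) hET hE hc htr hA

end Cfsg.Agent.H212.SF
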